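import Mathlib
import Cfsg.Agent.H25.CharInd
import Cfsg.Agent.H68.CharTools
import Cfsg.Agent.H68.RankOne
import Cfsg.Agent.H44.Inflation

/-! A solvable group of order `6048` with an irreducible character of degree `42`. -/

set_option autoImplicit false

namespace Cfsg.Agent.H38.UTT

open Cfsg
open scoped ComplexConjugate

/-- Inducing a linear character of a normal subgroup with trivial inertia gives an irreducible. -/
theorem isIrr_indFun_of_free {G : Type*} [Group G] [Fintype G] (N : Subgroup G) [N.Normal]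
    (f : N →* ℂˣ)
    (hfree : ∀ g : G, (∀ n : N, f (MulAut.conjNormal g n) = f n) → g ∈ N) :
    IsIrrCharacter G (indFun N fun n => (f n : ℂ)) := by
  classical
  haveI : Fintype N := Fintype.ofFinite N
  refine H68.isIrrCharacter_of_norm_one (H68.isCharacter_indFun_hom N f) ?_
  rw [H68.classInner_indFun_right N (H68.isClassFunction_indFun N _)]
  have hN : (Nat.card N : ℂ) ≠ 0 := Nat.cast_ne_zero.2 Nat.card_pos.ne'
  have hunit : ∀ k : N, (f k : ℂ) * conj (f k : ℂ) = 1 := by
    intro k
    have h : (f k : ℂ) ^ Nat.card N = 1 := by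
      rw [← Units.val_pow_eq_pow_val, ← map_pow, pow_card_eq_one', map_one, Units.val_one]
    rw [Complex.mul_conj', Complex.norm_eq_one_of_pow_eq_one h Nat.card_pos.ne']
    simp
  let T : G → ℂ := fun x => ∑ n : N, (f (MulAut.conjNormal x⁻¹ n) : ℂ) * conj (f n : ℂ)
  have hval : classInner (fun n : N => indFun N (fun n => (f n : ℂ)) n) (fun n => (f n : ℂ)) =
      (Nat.card N : ℂ)⁻¹ ^ 2 * ∑ x : G, T x := by
    simp only [classInner, indFun, T]
    rw [Finset.sum_comm (s := (Finset.univ : Finset G)), Finset.mul_sum, Finset.mul_sum]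
    refine Finset.sum_congr rfl fun n _ => ?_
    rw [Finset.mul_sum, Finset.sum_mul, Finset.mul_sum, Finset.mul_sum]
    refine Finset.sum_congr rfl fun x _ => ?_
    rw [H25.extendByZero_of_mem N _ (show x⁻¹ * (n : G) * x ∈ N by
      simpa using (inferInstance : N.Normal).conj_mem (n : G) n.2 x⁻¹)]
    rw [show MulAut.conjNormal x⁻¹ n = (⟨x⁻¹ * (n : G) * x, by
      simpa using (inferInstance : N.Normal).conj_mem (n : G) n.2 x⁻¹⟩ : N) from Subtype.ext (by simp)]
    ring
  have hin : ∀ x ∈ N, T x = (Nat.card N : ℂ) := by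
    intro x hx
    have h1 : ∀ n : N, f (MulAut.conjNormal x⁻¹ n) = f n := fun n => by
      have e : MulAut.conjNormal x⁻¹ n = (⟨x, hx⟩ : N)⁻¹ * n * ⟨x, hx⟩ := Subtype.ext (by simp)
      rw [e, map_mul, map_mul, map_inv, mul_comm (f ⟨x, hx⟩)⁻¹, inv_mul_cancel_right]
    simp only [T, h1, hunit, Finset.sum_const, Finset.card_univ, nsmul_eq_mul, mul_one,
      Nat.card_eq_fintype_card]
  have hout : ∀ x, x ∉ N → T x = 0 := by
    intro x hx
    obtain ⟨k, hk⟩ : ∃ k : N, f (MulAut.conjNormal x⁻¹ k) ≠ f k := by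
      by_contra h
      push Not at h
      exact hx (by simpa using hfree x⁻¹ h)
    set c : ℂ := (f (MulAut.conjNormal x⁻¹ k) : ℂ) * conj (f k : ℂ) with hc
    have hc1 : c ≠ 1 := by
      intro h
      apply hk
      apply Units.ext
      calc (f (MulAut.conjNormal x⁻¹ k) : ℂ)
          = (f (MulAut.conjNormal x⁻¹ k) : ℂ) * (conj (f k : ℂ) * (f k : ℂ)) := by
            rw [mul_comm (conj _), hunit, mul_one]
        _ = _ := by rw [← mul_assoc, ← hc, h, one_mul]
    have hmul : c * T x = T x := by
      simp only [T, Finset.mul_sum]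
      refine Fintype.sum_equiv (Equiv.mulLeft k) _ _ fun n => ?_
      simp only [Equiv.coe_mulLeft, map_mul, Units.val_mul, hc]
      ring
    by_contra h0
    exact hc1 (mul_right_cancel₀ h0 (hmul.trans (one_mul _).symm))
  rw [hval, ← Finset.sum_filter_add_sum_filter_not Finset.univ (fun x : G => x ∈ N),
    Finset.sum_congr rfl fun x hx => hin x (Finset.mem_filter.mp hx).2,
    Finset.sum_eq_zero (fun x hx => hout x (Finset.mem_filter.mp hx).2), add_zero, Finset.sum_const,
    nsmul_eq_mul, show ((Finset.univ.filter fun x : G => x ∈ N).card : ℂ) = (Nat.card N : ℂ) by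
      rw [Nat.card_eq_fintype_card, Fintype.card_subtype]]
  field_simp

/-- The units of a ring acting on its additive group. -/
def unitsAct (R : Type*) [CommRing R] : Rˣ →* MulAut (Multiplicative R) where
  toFun u :=
    { toFun := fun a => Multiplicative.ofAdd ((u : R) * Multiplicative.toAdd a)
      invFun := fun a => Multiplicative.ofAdd (((u⁻¹ : Rˣ) : R) * Multiplicative.toAdd a)
      left_inv := fun a => by simp
      right_inv := fun a => by simp
      map_mul' := fun a b => by
        apply Multiplicative.toAdd.injective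
        simp [mul_add] }
  map_one' := by ext a; simp
  map_mul' u v := by ext a; simp [mul_assoc]

theorem conj_inl {R : Type*} [CommRing R] (g : Multiplicative R ⋊[unitsAct R] Rˣ) (r : R) :
    g * SemidirectProduct.inl (Multiplicative.ofAdd r) * g⁻¹ =
      SemidirectProduct.inl (Multiplicative.ofAdd ((g.right : R) * r)) := by
  refine SemidirectProduct.ext ?_ ?_
  · simp only [SemidirectProduct.mul_left, SemidirectProduct.mul_right, SemidirectProduct.inv_left,
      SemidirectProduct.left_inl, SemidirectProduct.right_inl, mul_one]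
    apply Multiplicative.toAdd.injective
    simp [unitsAct]
  · simp [SemidirectProduct.mul_right, SemidirectProduct.inv_right]

/-- An additive character detecting all units gives a character whose degree is the number of
units. -/
theorem exists_affine_degree {R : Type} [CommRing R] [Finite R] (ψ : AddChar R ℂ)
    (hψ : ∀ u : Rˣ, (∀ r, ψ ((u : R) * r) = ψ r) → u = 1) :
    ∃ χ : IrrCharacter (Multiplicative R ⋊[unitsAct R] Rˣ),
      charDegree (χ : Multiplicative R ⋊[unitsAct R] Rˣ → ℂ) = Nat.card Rˣ := by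
  classical
  haveI : Finite (Multiplicative R ⋊[unitsAct R] Rˣ) := Finite.of_equiv _ SemidirectProduct.equivProd.symm
  haveI := Fintype.ofFinite (Multiplicative R ⋊[unitsAct R] Rˣ)
  set G := Multiplicative R ⋊[unitsAct R] Rˣ
  set N : Subgroup G := (SemidirectProduct.inl : Multiplicative R →* G).range with hN
  have hker : N = (SemidirectProduct.rightHom : G →* Rˣ).ker :=
    SemidirectProduct.range_inl_eq_ker_rightHom
  haveI : N.Normal := hker ▸ inferInstance
  let e : Multiplicative R ≃* N := MonoidHom.ofInjective SemidirectProduct.inl_injective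
  let f : N →* ℂˣ := (ψ.toMonoidHom.comp e.symm.toMonoidHom).toHomUnits
  have hf : ∀ a : Multiplicative R, (f (e a) : ℂ) = ψ (Multiplicative.toAdd a) := by
    intro a
    simp only [f, MonoidHom.coe_toHomUnits, MonoidHom.comp_apply, MulEquiv.coe_toMonoidHom,
      MulEquiv.symm_apply_apply]
    rfl
  have hirr := isIrr_indFun_of_free N f fun g hg => by
    rw [hker, MonoidHom.mem_ker]
    refine hψ _ fun r => ?_
    have h := congrArg Units.val (hg (e (Multiplicative.ofAdd r)))
    rw [hf, show MulAut.conjNormal g (e (Multiplicative.ofAdd r)) =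
      e (Multiplicative.ofAdd ((g.right : R) * r)) from Subtype.ext (by
        rw [MulAut.conjNormal_apply]
        show g * SemidirectProduct.inl (Multiplicative.ofAdd r) * g⁻¹ =
          SemidirectProduct.inl (Multiplicative.ofAdd ((g.right : R) * r))
        exact conj_inl g r), hf] at h
    show ψ ((g.right : R) * r) = ψ r
    simpa using h
  refine ⟨⟨_, hirr⟩, ?_⟩
  have hidx : N.index = Nat.card Rˣ := by
    rw [hker, Subgroup.index_ker,
      MonoidHom.range_eq_top_of_surjective _ SemidirectProduct.rightHom_surjective, Subgroup.card_top]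
  have h1 : ((charDegree (indFun N fun n => (f n : ℂ)) : ℕ) : ℂ) = (Nat.card Rˣ : ℂ) := by
    rw [H44.cast_charDegree ⟨_, hirr⟩]
    show indFun N _ 1 = _
    rw [H25.indFun_one, hidx, map_one, Units.val_one, mul_one]
  exact_mod_cast h1

/-- The solvable model. -/
theorem exists_solvable_model : ∃ (H : Type) (_ : Group H) (_ : Fintype H), Group.IsSolvable H ∧
    Nat.card H = 6048 ∧ ∃ χ : IrrCharacter H, charDegree (χ : H → ℂ) = 42 := by
  classical
  let K := GaloisField 2 3
  let R := ZMod 9 × K
  haveI : Finite R := by infer_instance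
  have hKne : ∃ ψ : AddChar K ℂ, ψ (1 : K) ≠ 1 := AddChar.exists_apply_ne_zero.mpr one_ne_zero
  obtain ⟨ψ₂, hψ₂⟩ := hKne
  let ψ : AddChar R ℂ :=
    { toFun := fun r => ZMod.stdAddChar r.1 * ψ₂ r.2
      map_zero_eq_one' := by
        show ZMod.stdAddChar (0 : ZMod 9) * ψ₂ 0 = 1
        rw [AddChar.map_zero_eq_one, AddChar.map_zero_eq_one, one_mul]
      map_add_eq_mul' := fun a b => by
        show ZMod.stdAddChar (a.1 + b.1) * ψ₂ (a.2 + b.2) = (ZMod.stdAddChar a.1 * ψ₂ a.2) * (ZMod.stdAddChar b.1 * ψ₂ b.2)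
        rw [AddChar.map_add_eq_mul, AddChar.map_add_eq_mul]; ring }
  have hψ : ∀ u : Rˣ, (∀ r, ψ ((u : R) * r) = ψ r) → u = 1 := by
    intro u hu
    apply Units.ext
    refine Prod.ext ?_ ?_
    · have h := hu (1, 0)
      change ZMod.stdAddChar ((u : R).1 * 1) * ψ₂ ((u : R).2 * 0) = ZMod.stdAddChar (1 : ZMod 9) * ψ₂ 0 at h
      simp only [mul_one, mul_zero, AddChar.map_zero_eq_one] at h
      exact ZMod.injective_stdAddChar h
    · by_contra hne
      apply hψ₂
      have hd : (u : R).2 - 1 ≠ 0 := sub_ne_zero.mpr hne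
      have h := hu (0, ((u : R).2 - 1)⁻¹)
      change ZMod.stdAddChar ((u : R).1 * 0) * ψ₂ ((u : R).2 * ((u : R).2 - 1)⁻¹) =
        ZMod.stdAddChar (0 : ZMod 9) * ψ₂ ((u : R).2 - 1)⁻¹ at h
      simp only [mul_zero, AddChar.map_zero_eq_one, one_mul] at h
      have e : (u : R).2 * ((u : R).2 - 1)⁻¹ = 1 + ((u : R).2 - 1)⁻¹ := by
        linear_combination mul_inv_cancel₀ hd
      rw [e, AddChar.map_add_eq_mul] at h
      have h0 : ψ₂ ((u : R).2 - 1)⁻¹ ≠ 0 := by
        intro h0
        have := AddChar.map_add_eq_mul ψ₂ ((u : R).2 - 1)⁻¹ (-((u : R).2 - 1)⁻¹)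
        rw [add_neg_cancel, AddChar.map_zero_eq_one, h0, zero_mul] at this
        exact one_ne_zero this
      exact mul_right_cancel₀ h0 (h.trans (one_mul _).symm)
  obtain ⟨χ, hχ⟩ := exists_affine_degree ψ hψ
  have hu : Nat.card Rˣ = 42 := by
    rw [Nat.card_congr (MulEquiv.prodUnits (M := ZMod 9) (N := K)).toEquiv, Nat.card_prod,
      Nat.card_eq_fintype_card, ZMod.card_units_eq_totient, Nat.card_units, GaloisField.card 2 3 (by norm_num)]
    decide
  let K₀ := Multiplicative R ⋊[unitsAct R] Rˣ
  let H := K₀ × Multiplicative (ZMod 2)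
  have hK₀ : Group.IsSolvable K₀ :=
    Group.isSolvable_of_ker_le_range (SemidirectProduct.inl : Multiplicative R →* K₀)
      (SemidirectProduct.rightHom : K₀ →* Rˣ) (SemidirectProduct.range_inl_eq_ker_rightHom).ge
  haveI : Finite K₀ := Finite.of_equiv _ SemidirectProduct.equivProd.symm
  haveI : Fintype H := Fintype.ofFinite H
  refine ⟨H, inferInstance, inferInstance, ?_, ?_, ⟨_, H44.isIrrCharacter_comp_surjective
    (MonoidHom.fst K₀ (Multiplicative (ZMod 2))) Prod.fst_surjective χ.2⟩, ?_⟩
  · haveI := hK₀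
    infer_instance
  · rw [Nat.card_prod, SemidirectProduct.card, hu, Nat.card_congr Multiplicative.toAdd,
      Nat.card_congr Multiplicative.toAdd, Nat.card_prod, Nat.card_zmod, Nat.card_zmod,
      GaloisField.card 2 3 (by norm_num)]
    norm_num
  · rw [← hu, ← hχ]
    simp [charDegree]

end Cfsg.Agent.H38.UTT
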